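import Groth.Agent.Sga5.H650.ConstCount
import Groth.Agent.S0224
import Groth.Agent.S0225
import Groth.Prelude.Def_CurvBase

/-!
# Orders of the cohomology groups of a constant sheaf on a smooth proper curve

`card_const` : for a finite group `M` killed by `N` invertible in the algebraically closed field `k`,
`|H⁰(C, M)| = |H²(C, M)| = |M|` and `|H¹(C, M)| = |M|^(2g)`.
-/

set_option autoImplicit false
universe u
open CategoryTheory CategoryTheory.Limits AlgebraicGeometry Opposite

namespace Groth.Agent.Sga5.H650.CardConst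

theorem card_const (k : Type u) [Field k] [IsAlgClosed k] (C : Scheme.{u})
    [C.Over (Spec (CommRingCat.of k))]
    (hX : Curve.IsSmoothProperCurve k C (C ↘ Spec (CommRingCat.of k))) (N : ℕ) (hN : 1 ≤ N)
    (hNk : (N : k) ≠ 0) (M : Type) [AddCommGroup M] [Finite M] (hM : ∀ m : M, N • m = 0) :
    Nat.card (EtCoh.H C (EtCoh.const C M) 0) = Nat.card M ∧
      Nat.card (EtCoh.H C (EtCoh.const C M) 1) = Nat.card M ^ (2 * Curv2.genus k C) ∧
      Nat.card (EtCoh.H C (EtCoh.const C M) 2) = Nat.card M := by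
  have hint : IsIntegral C := hX.2.2.1
  have hk : ∀ n : ℕ, n ∣ N → (n : k) ≠ 0 := by
    rintro n ⟨m, rfl⟩ h
    rw [Nat.cast_mul, h, zero_mul] at hNk
    exact hNk rfl
  refine ⟨ConstCount.card_H0_const C M, ?_, ?_⟩
  · refine ConstCount.card_H_const_of_cyclic C 1 N (2 * Curv2.genus k C) hN (fun n hn hd => ?_) M hM
    obtain ⟨e⟩ := Groth.Agent.S0224.result k C hX (Curv2.genus k C) rfl n hn (hk n hd)
    rw [Nat.card_congr e.toEquiv, Nat.card_fun, Nat.card_zmod, Nat.card_fin]
  · have h := ConstCount.card_H_const_of_cyclic C 2 N 1 hN (fun n hn hd => ?_) M hM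
    · rwa [pow_one] at h
    · obtain ⟨e⟩ := Groth.Agent.S0225.result k C hX n hn (hk n hd)
      rw [Nat.card_congr e.toEquiv, Nat.card_zmod, pow_one]

end Groth.Agent.Sga5.H650.CardConst
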